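import Mathlib

set_option autoImplicit false

namespace Cfsg.Agent.Lib.Helper35.AB

/-- NUM1 -/
theorem num1 (s t : ℕ) (ht : 1 ≤ t) (hs : 2 ^ t ≤ s) : s * t ^ t ≤ s ^ t := by
  obtain ⟨u, rfl⟩ : ∃ u, t = u + 1 := ⟨t - 1, by omega⟩
  have h1 : u + 1 ≤ 2 ^ u := Nat.lt_two_pow_self
  have h2 : (u + 1) ^ (u + 1) ≤ s ^ u := by
    calc (u + 1) ^ (u + 1) ≤ (2 ^ u) ^ (u + 1) := Nat.pow_le_pow_left h1 _
      _ = (2 ^ (u + 1)) ^ u := by rw [← pow_mul, ← pow_mul, mul_comm]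
      _ ≤ s ^ u := Nat.pow_le_pow_left hs _
  calc s * (u + 1) ^ (u + 1) ≤ s * s ^ u := Nat.mul_le_mul_left _ h2
    _ = s ^ (u + 1) := by rw [pow_succ, mul_comm]

end Cfsg.Agent.Lib.Helper35.AB
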