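import Mathlib

set_option autoImplicit false

namespace Cfsg.Agent.Lib.Helper35.AB

lemma num2_pos (a b t l : ℕ) (ht : 0 < t) (hl : 0 < l) :
    a ^ t * b ^ l * (t + l) ^ (t + l) ≤ (a + b) ^ (t + l) * (t ^ t * l ^ l) := by
  have hT : (0 : ℝ) < t := by exact_mod_cast ht
  have hL : (0 : ℝ) < l := by exact_mod_cast hl
  have hK : (0 : ℝ) < (t : ℝ) + l := by positivity
  have hp1 : (0 : ℝ) ≤ (a : ℝ) / t := by positivity
  have hp2 : (0 : ℝ) ≤ (b : ℝ) / l := by positivity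
  have h := Real.geom_mean_le_arith_mean2_weighted (w₁ := (t : ℝ) / (t + l)) (w₂ := (l : ℝ) / (t + l))
    (p₁ := (a : ℝ) / t) (p₂ := (b : ℝ) / l) (by positivity) (by positivity) hp1 hp2 (by field_simp)
  have hr : (t : ℝ) / (t + l) * ((a : ℝ) / t) + (l : ℝ) / (t + l) * ((b : ℝ) / l) = ((a : ℝ) + b) / (t + l) := by
    field_simp
  rw [hr] at h
  have h2 := pow_le_pow_left₀ (by positivity) h (t + l)
  have e1 : (((a : ℝ) / t) ^ ((t : ℝ) / (t + l))) ^ (t + l) = ((a : ℝ) / t) ^ t := by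
    rw [← Real.rpow_natCast, ← Real.rpow_mul hp1, ← Real.rpow_natCast]
    congr 1
    push_cast
    field_simp
  have e2 : (((b : ℝ) / l) ^ ((l : ℝ) / (t + l))) ^ (t + l) = ((b : ℝ) / l) ^ l := by
    rw [← Real.rpow_natCast, ← Real.rpow_mul hp2, ← Real.rpow_natCast]
    congr 1
    push_cast
    field_simp
  rw [mul_pow, e1, e2, div_pow, div_pow, div_pow, div_mul_div_comm,
    div_le_div_iff₀ (by positivity) (by positivity)] at h2
  have h3 : ((a ^ t * b ^ l * (t + l) ^ (t + l) : ℕ) : ℝ) ≤ (((a + b) ^ (t + l) * (t ^ t * l ^ l) : ℕ) : ℝ) := by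
    push_cast
    exact h2
  exact_mod_cast h3

/-- NUM2 weighted AM-GM in ℕ -/
theorem num2 (a b t l : ℕ) :
    a ^ t * b ^ l * (t + l) ^ (t + l) ≤ (a + b) ^ (t + l) * (t ^ t * l ^ l) := by
  rcases Nat.eq_zero_or_pos t with rfl | ht
  · simp only [pow_zero, one_mul, zero_add]
    exact Nat.mul_le_mul_right _ (Nat.pow_le_pow_left (Nat.le_add_left b a) l)
  rcases Nat.eq_zero_or_pos l with rfl | hl
  · simp only [pow_zero, mul_one, add_zero]
    exact Nat.mul_le_mul_right _ (Nat.pow_le_pow_left (Nat.le_add_right a b) t)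
  exact num2_pos a b t l ht hl

end Cfsg.Agent.Lib.Helper35.AB
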