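import Cfsg.Agent.Lib.Helper35.Simple3

/-! Classes of 3-transpositions from a rank 3 permutation model. -/

namespace Cfsg.Agent.Lib.Helper35

/-- group-theoretic core: three double cosets of a subgroup centralising an involution -/
theorem three_trans_core {G : Type*} [Group G] (H : Subgroup G) (z t1 t2 : G)
    (hz2 : z * z = 1) (hz1 : z ≠ 1) (hzH : ∀ h ∈ H, h * z = z * h)
    (hdc : ∀ g : G, g ∈ H ∨ (∃ h ∈ H, ∃ h' ∈ H, g = h * t1 * h') ∨ (∃ h ∈ H, ∃ h' ∈ H, g = h * t2 * h'))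
    (h1n : t1 * z * t1⁻¹ ≠ z) (h2n : t2 * z * t2⁻¹ ≠ z)
    (h1 : (z * (t1 * z * t1⁻¹)) ^ 3 = 1) (h2 : (z * (t2 * z * t2⁻¹)) ^ 2 = 1) :
    Subgroup.centralizer {z} = H ∧ Cfsg.IsThreeTranspositionSet (conjugatesOf z) := by
  have hconjH : ∀ h ∈ H, h * z * h⁻¹ = z := by
    intro h hh
    rw [hzH h hh, mul_inv_cancel_right]
  have hform : ∀ t : G, ∀ h ∈ H, ∀ h' ∈ H,
      (h * t * h') * z * (h * t * h')⁻¹ = h * (t * z * t⁻¹) * h⁻¹ := by
    intro t h _ h' hh'
    have := hconjH h' hh'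
    calc (h * t * h') * z * (h * t * h')⁻¹ = h * (t * (h' * z * h'⁻¹) * t⁻¹) * h⁻¹ := by group
      _ = h * (t * z * t⁻¹) * h⁻¹ := by rw [this]
  have hno : ∀ t : G, t * z * t⁻¹ ≠ z → ∀ h ∈ H, ∀ h' ∈ H, (h * t * h') * z * (h * t * h')⁻¹ ≠ z := by
    intro t ht h hh h' hh' he
    rw [hform t h hh h' hh'] at he
    apply ht
    have h3 := hconjH h⁻¹ (H.inv_mem hh)
    rw [inv_inv] at h3
    calc t * z * t⁻¹ = h⁻¹ * (h * (t * z * t⁻¹) * h⁻¹) * h := by group
      _ = h⁻¹ * z * h := by rw [he]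
      _ = z := h3
  constructor
  · ext g
    rw [Subgroup.mem_centralizer_singleton_iff]
    constructor
    · intro hg
      have hg' : g * z * g⁻¹ = z := by rw [hg, mul_inv_cancel_right]
      rcases hdc g with h | ⟨h, hh, h', hh', rfl⟩ | ⟨h, hh, h', hh', rfl⟩
      · exact h
      · exact absurd hg' (hno t1 h1n h hh h' hh')
      · exact absurd hg' (hno t2 h2n h hh h' hh')
    · intro hg
      exact hzH g hg
  · constructor
    · intro d hd
      obtain ⟨c, rfl⟩ := isConj_iff.mp (show IsConj z d from hd)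
      apply orderOf_eq_prime
      · rw [conj_pow, pow_two, hz2]; group
      · intro he
        apply hz1
        calc z = c⁻¹ * (c * z * c⁻¹) * c := by group
          _ = 1 := by rw [he]; group
    · intro d hd e he
      obtain ⟨x, rfl⟩ := isConj_iff.mp (show IsConj z d from hd)
      obtain ⟨y, rfl⟩ := isConj_iff.mp (show IsConj z e from he)
      have hxy : x * z * x⁻¹ * (y * z * y⁻¹) = x * (z * ((x⁻¹ * y) * z * (x⁻¹ * y)⁻¹)) * x⁻¹ := by group
      rw [hxy, conj_pow, conj_pow]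
      rcases hdc (x⁻¹ * y) with h | ⟨h, hh, h', hh', hg⟩ | ⟨h, hh, h', hh', hg⟩
      · left
        rw [hconjH _ h, hz2]; group
      · right
        rw [hg, hform t1 h hh h' hh']
        have : z * (h * (t1 * z * t1⁻¹) * h⁻¹) = h * (z * (t1 * z * t1⁻¹)) * h⁻¹ := by
          calc z * (h * (t1 * z * t1⁻¹) * h⁻¹) = (z * h) * (t1 * z * t1⁻¹) * h⁻¹ := by group
            _ = (h * z) * (t1 * z * t1⁻¹) * h⁻¹ := by rw [hzH h hh]
            _ = h * (z * (t1 * z * t1⁻¹)) * h⁻¹ := by group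
        rw [this, conj_pow, h1]; group
      · left
        rw [hg, hform t2 h hh h' hh']
        have : z * (h * (t2 * z * t2⁻¹) * h⁻¹) = h * (z * (t2 * z * t2⁻¹)) * h⁻¹ := by
          calc z * (h * (t2 * z * t2⁻¹) * h⁻¹) = (z * h) * (t2 * z * t2⁻¹) * h⁻¹ := by group
            _ = (h * z) * (t2 * z * t2⁻¹) * h⁻¹ := by rw [hzH h hh]
            _ = h * (z * (t2 * z * t2⁻¹)) * h⁻¹ := by group
        rw [this, conj_pow, h2]; group

/-- labels are bounded when the counted labels exhaust the points -/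
lemma OrbData.lab_lt {C : Nat} {inv : Nat → Nat} {R S : List (List Nat)} {n : Nat}
    {D : PermData C inv R S n} (O : OrbData D) (r : Nat) (cnt : Nat → Nat)
    (hcnt : ∀ k, k < r → countBelow (fun j => Nat.beq (O.lab j) k) (n + 1) = cnt k)
    (hsum : ∑ k ∈ Finset.range r, cnt k = n + 1) (i : Fin (n + 1)) : O.lab i.1 < r := by
  classical
  have hcnt' : ∀ k, k < r →
      ((Finset.univ : Finset (Fin (n + 1))).filter (fun i => O.lab i.1 = k)).card = cnt k := by
    intro k hk
    rw [← hcnt k hk, countBelow_spec, ← Finset.card_map Fin.valEmbedding]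
    congr 1
    ext v
    simp only [Finset.mem_filter, Finset.mem_range, Finset.mem_map, Finset.mem_univ, true_and,
      Fin.valEmbedding_apply]
    constructor
    · rintro ⟨i, hi, rfl⟩
      refine ⟨i.2, ?_⟩
      rw [hi]
      exact Nat.beq_refl k
    · rintro ⟨hv, hb⟩
      exact ⟨⟨v, hv⟩, Nat.eq_of_beq_eq_true hb, rfl⟩
  have h1 : ((Finset.univ : Finset (Fin (n + 1))).filter (fun i => O.lab i.1 ∈ Finset.range r)).card =
      ∑ k ∈ Finset.range r, cnt k := by
    rw [Finset.card_eq_sum_card_fiberwise (f := fun i : Fin (n + 1) => O.lab i.1) (t := Finset.range r)]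
    · apply Finset.sum_congr rfl
      intro k hk
      rw [← hcnt' k (Finset.mem_range.mp hk)]
      congr 1
      ext i
      simp only [Finset.mem_filter, Finset.mem_univ, true_and]
      constructor
      · rintro ⟨_, h⟩; exact h
      · intro h; exact ⟨h ▸ hk, h⟩
    · intro i hi
      simp only [Finset.coe_filter, Finset.mem_univ, true_and, Set.mem_ofPred_eq] at hi
      exact hi
  rw [hsum] at h1
  have h2 : ((Finset.univ : Finset (Fin (n + 1))).filter (fun i => O.lab i.1 ∈ Finset.range r)) =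
      Finset.univ := by
    apply Finset.eq_univ_of_card
    rw [h1]; simp
  have : i ∈ ((Finset.univ : Finset (Fin (n + 1))).filter (fun i => O.lab i.1 ∈ Finset.range r)) := by
    rw [h2]; exact Finset.mem_univ i
  simpa using this

section model

variable {C : Nat} {inv : Nat → Nat} {R S : List (List Nat)} {n : Nat} (D : PermData C inv R S n)
  {K : Type} [Group K] (u : Nat → K) (Ψ : K →* Equiv.Perm (Fin (n + 1))) (hΨ : ∀ c, Ψ (u c) = D.pv c)

include hΨ in
lemma model_sub_fix (h : K) (hh : h ∈ wsub u S) : Ψ h 0 = 0 := by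
  have hmap : (wsub u S).map Ψ = OrbData.A (D := D) := map_wsub Ψ u D.pv hΨ S
  have hA0 : ∀ a ∈ OrbData.A (D := D), a 0 = 0 := by
    intro a ha
    induction ha using Subgroup.closure_induction with
    | mem g hg =>
      obtain ⟨s, hs, rfl⟩ := hg
      have := D.pv_sub s hs
      rw [Equiv.Perm.inv_eq_iff_eq] at this
      exact this.symm
    | one => simp
    | mul a b _ _ iha ihb => rw [Equiv.Perm.mul_apply, ihb, iha]
    | inv a _ iha => rw [Equiv.Perm.inv_eq_iff_eq, iha]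
  apply hA0
  rw [← hmap]
  exact Subgroup.mem_map_of_mem Ψ hh

include hΨ in
/-- the point stabiliser is the subgroup, by counting -/
lemma model_stab [Finite K] (hcard : Nat.card K = (n + 1) * Nat.card (wsub u S)) (g : K)
    (hg : Ψ g 0 = 0) : g ∈ wsub u S := by
  let _ : MulAction K (Fin (n + 1)) := MulAction.compHom _ Ψ
  have hsmul : ∀ (g : K) (i : Fin (n + 1)), g • i = Ψ g i := fun _ _ => rfl
  have hle : wsub u S ≤ MulAction.stabilizer K (0 : Fin (n + 1)) := by
    intro h hh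
    rw [MulAction.mem_stabilizer_iff, hsmul]
    exact model_sub_fix D u Ψ hΨ h hh
  have horb : MulAction.orbit K (0 : Fin (n + 1)) = Set.univ := by
    ext i
    simp only [Set.mem_univ, iff_true]
    obtain ⟨W, hW⟩ := D.pv_reach i
    refine ⟨(wval u W)⁻¹, ?_⟩
    show Ψ (wval u W)⁻¹ 0 = i
    rw [map_inv, map_wval Ψ u D.pv hΨ]
    exact hW
  have hidx : (MulAction.stabilizer K (0 : Fin (n + 1))).index = n + 1 := by
    rw [MulAction.index_stabilizer, horb]
    simp
  have h1 := Subgroup.card_mul_index (MulAction.stabilizer K (0 : Fin (n + 1)))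
  rw [hidx, hcard, mul_comm] at h1
  have h2 : Nat.card (MulAction.stabilizer K (0 : Fin (n + 1))) = Nat.card (wsub u S) :=
    Nat.eq_of_mul_eq_mul_left (Nat.succ_pos n) h1
  have h3 := Subgroup.eq_of_le_of_card_ge hle (le_of_eq h2)
  rw [h3, MulAction.mem_stabilizer_iff, hsmul]
  exact hg

include hΨ in
/-- double coset decomposition from the orbit labelling -/
lemma model_double_coset [Finite K] (hcard : Nat.card K = (n + 1) * Nat.card (wsub u S)) (O : OrbData D)
    (g : K) (t : K) (ht : ((Ψ t 0 : Fin (n + 1)) : Nat) = O.rep (O.lab (Ψ g 0).1)) :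
    ∃ h ∈ wsub u S, ∃ h' ∈ wsub u S, g = h * t * h' := by
  have hmap : (wsub u S).map Ψ = OrbData.A (D := D) := map_wsub Ψ u D.pv hΨ S
  obtain ⟨a, ha, hai⟩ := O.reach (Ψ g 0)
  rw [← hmap] at ha
  obtain ⟨h, hh, rfl⟩ := Subgroup.mem_map.mp ha
  have h0 : Ψ (t⁻¹ * h * g) 0 = 0 := by
    rw [map_mul, map_mul, map_inv, Equiv.Perm.mul_apply, Equiv.Perm.mul_apply, Equiv.Perm.inv_eq_iff_eq]
    apply Fin.ext
    rw [hai, ht]
  refine ⟨h⁻¹, (wsub u S).inv_mem hh, t⁻¹ * h * g, model_stab D u Ψ hΨ hcard _ h0, ?_⟩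
  group

include hΨ in
/-- a class of 3-transpositions from a rank 3 model -/
theorem three_trans_of_model [Finite K] (hΨi : Function.Injective Ψ)
    (hcard : Nat.card K = (n + 1) * Nat.card (wsub u S)) (O : OrbData D)
    (hlab : ∀ i : Fin (n + 1), O.lab i.1 < 3)
    (zw g1 g1r g2 g2r : List Nat) (hzC : ∀ c ∈ zw, c < C)
    (hg1C : ∀ c ∈ g1, c < C) (hg1rC : ∀ c ∈ g1r, c < C) (hg2C : ∀ c ∈ g2, c < C) (hg2rC : ∀ c ∈ g2r, c < C)
    (hr0 : O.rep 0 = 0) (hr1 : O.rep 1 = pwalk D.pt g1 0) (hr2 : O.rep 2 = pwalk D.pt g2 0)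
    (hsq : ∀ s ∈ S, ∀ i, i < n + 1 → pwalk D.pt (s ++ s) i = i)
    (hzc : ∀ s ∈ S, ∀ i, i < n + 1 → pwalk D.pt (zw ++ (s ++ (zw ++ s))) i = i)
    (hzz : ∀ i, i < n + 1 → pwalk D.pt (zw ++ zw) i = i)
    (i0 : Nat) (hi0 : i0 < n + 1) (hz1 : pwalk D.pt zw i0 ≠ pwalk D.pt [] i0)
    (hi1 : ∀ i, i < n + 1 → pwalk D.pt (g1r ++ g1) i = i)
    (hi2 : ∀ i, i < n + 1 → pwalk D.pt (g2r ++ g2) i = i)
    (j1 : Nat) (hj1 : j1 < n + 1) (hn1 : pwalk D.pt (g1r ++ (zw ++ g1)) j1 ≠ pwalk D.pt zw j1)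
    (j2 : Nat) (hj2 : j2 < n + 1) (hn2 : pwalk D.pt (g2r ++ (zw ++ g2)) j2 ≠ pwalk D.pt zw j2)
    (h1 : ∀ i, i < n + 1 → pwalk D.pt (repW 3 (zw ++ (g1r ++ (zw ++ g1)))) i = i)
    (h2 : ∀ i, i < n + 1 → pwalk D.pt (repW 2 (zw ++ (g2r ++ (zw ++ g2)))) i = i) :
    Subgroup.centralizer {wval u zw} = wsub u S ∧
      Cfsg.IsThreeTranspositionSet (conjugatesOf (wval u zw)) := by
  have happ : ∀ A B : List Nat, (∀ c ∈ A, c < C) → (∀ c ∈ B, c < C) → ∀ c ∈ A ++ B, c < C := by
    intro A B hA hB c hc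
    rcases List.mem_append.mp hc with h | h
    · exact hA c h
    · exact hB c h
  set z := wval u zw with hz
  have hz2 : z * z = 1 := by
    rw [hz, ← wval_append]
    exact model_eq_one D u Ψ hΨ hΨi _ (happ _ _ hzC hzC) hzz
  have hzne : z ≠ 1 := by
    have := model_ne D u Ψ hΨ zw [] hzC (by intro c hc; simp at hc) i0 hi0 hz1
    simpa using this
  have hzi : z⁻¹ = z := inv_eq_of_mul_eq_one_left hz2
  have hgen : ∀ s ∈ S, wval u s * z = z * wval u s := by
    intro s hs
    have hsC := D.hSC s hs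
    have e1 : wval u s * wval u s = 1 := by
      rw [← wval_append]
      exact model_eq_one D u Ψ hΨ hΨi _ (happ _ _ hsC hsC) (hsq s hs)
    have e2 : z * (wval u s * (z * wval u s)) = 1 := by
      rw [hz, ← wval_append, ← wval_append, ← wval_append]
      exact model_eq_one D u Ψ hΨ hΨi _ (happ _ _ hzC (happ _ _ hsC (happ _ _ hzC hsC))) (hzc s hs)
    set g := wval u s with hg
    have hgi : g⁻¹ = g := inv_eq_of_mul_eq_one_left e1
    have h' : (z * g) * (z * g) = 1 := by rw [mul_assoc]; exact e2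
    have h3 : (z * g)⁻¹ = z * g := inv_eq_of_mul_eq_one_left h'
    rw [mul_inv_rev, hzi, hgi] at h3
    exact h3
  have hzH : ∀ h ∈ wsub u S, h * z = z * h := by
    intro h hh
    unfold wsub at hh
    induction hh using Subgroup.closure_induction with
    | mem g hg =>
      obtain ⟨s, hs, rfl⟩ := hg
      exact hgen s hs
    | one => simp
    | mul a b _ _ iha ihb => rw [mul_assoc, ihb, ← mul_assoc, iha, mul_assoc]
    | inv a _ iha =>
      calc a⁻¹ * z = a⁻¹ * (z * a) * a⁻¹ := by group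
        _ = a⁻¹ * (a * z) * a⁻¹ := by rw [iha]
        _ = z * a⁻¹ := by group
  have hinv1 : (wval u g1)⁻¹ = wval u g1r := by
    apply inv_eq_of_mul_eq_one_left
    rw [← wval_append]
    exact model_eq_one D u Ψ hΨ hΨi _ (happ _ _ hg1rC hg1C) hi1
  have hinv2 : (wval u g2)⁻¹ = wval u g2r := by
    apply inv_eq_of_mul_eq_one_left
    rw [← wval_append]
    exact model_eq_one D u Ψ hΨ hΨi _ (happ _ _ hg2rC hg2C) hi2
  have hc1 : (wval u g1)⁻¹ * z * ((wval u g1)⁻¹)⁻¹ = wval u (g1r ++ (zw ++ g1)) := by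
    rw [inv_inv, hinv1, wval_append, wval_append, mul_assoc]
  have hc2 : (wval u g2)⁻¹ * z * ((wval u g2)⁻¹)⁻¹ = wval u (g2r ++ (zw ++ g2)) := by
    rw [inv_inv, hinv2, wval_append, wval_append, mul_assoc]
  apply three_trans_core (wsub u S) z (wval u g1)⁻¹ (wval u g2)⁻¹ hz2 hzne hzH
  · intro g
    have hl := hlab (Ψ g 0)
    have hcases : O.lab (Ψ g 0).1 = 0 ∨ O.lab (Ψ g 0).1 = 1 ∨ O.lab (Ψ g 0).1 = 2 := by omega
    rcases hcases with h | h | h
    · left
      obtain ⟨a, ha, b, hb, hab⟩ := model_double_coset D u Ψ hΨ hcard O g 1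
        (by rw [h, hr0, map_one]; rfl)
      rw [hab, mul_one]
      exact (wsub u S).mul_mem ha hb
    · right; left
      apply model_double_coset D u Ψ hΨ hcard O g
      rw [h, hr1, map_inv, walk_of_hom u D Ψ hΨ g1 hg1C 0]
      rfl
    · right; right
      apply model_double_coset D u Ψ hΨ hcard O g
      rw [h, hr2, map_inv, walk_of_hom u D Ψ hΨ g2 hg2C 0]
      rfl
  · rw [hc1]
    exact model_ne D u Ψ hΨ _ _ (happ _ _ hg1rC (happ _ _ hzC hg1C)) hzC j1 hj1 hn1
  · rw [hc2]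
    exact model_ne D u Ψ hΨ _ _ (happ _ _ hg2rC (happ _ _ hzC hg2C)) hzC j2 hj2 hn2
  · rw [hc1, hz, ← wval_append, ← wval_repW]
    exact model_eq_one D u Ψ hΨ hΨi _
      (fun c hc => happ _ _ hzC (happ _ _ hg1rC (happ _ _ hzC hg1C)) c (mem_repW _ _ _ hc)) h1
  · rw [hc2, hz, ← wval_append, ← wval_repW]
    exact model_eq_one D u Ψ hΨ hΨi _
      (fun c hc => happ _ _ hzC (happ _ _ hg2rC (happ _ _ hzC hg2C)) c (mem_repW _ _ _ hc)) h2

end model

/-- the size of a conjugacy class -/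
lemma card_conjugatesOf_mul {G : Type*} [Group G] (z : G) :
    Nat.card (conjugatesOf z) * Nat.card (Subgroup.centralizer {z}) = Nat.card G := by
  have h1 := Subgroup.card_mul_index (MulAction.stabilizer (ConjAct G) z)
  rw [MulAction.index_stabilizer, ← Subgroup.nat_card_centralizer_nat_card_stabilizer] at h1
  have h2 : MulAction.orbit (ConjAct G) z = conjugatesOf z := by
    ext g
    rw [ConjAct.mem_orbit_conjAct]
    exact ⟨fun h => h.symm, fun h => IsConj.symm h⟩
  rw [h2] at h1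
  have h3 : Nat.card (ConjAct G) = Nat.card G := rfl
  rw [h3, mul_comm] at h1
  exact h1

/-- a nontrivial class generates a simple group -/
lemma closure_conjugatesOf_eq_top {G : Type*} [Group G] [IsSimpleGroup G] (z : G) (hz : z ≠ 1) :
    Subgroup.closure (conjugatesOf z) = ⊤ := by
  have hn : (Subgroup.closure (conjugatesOf z)).Normal := by
    have : Subgroup.closure (conjugatesOf z) = Subgroup.normalClosure {z} := by
      unfold Subgroup.normalClosure Group.conjugatesOfSet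
      simp
    rw [this]
    infer_instance
  rcases hn.eq_bot_or_eq_top with h | h
  · exfalso
    apply hz
    have : z ∈ Subgroup.closure (conjugatesOf z) := Subgroup.subset_closure mem_conjugatesOf_self
    rw [h, Subgroup.mem_bot] at this
    exact this
  · exact h

end Cfsg.Agent.Lib.Helper35
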