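import Mathlib

set_option autoImplicit false

universe u

namespace Cfsg.Agent.Lib.Helper35.SPU

open Module

/-- the semidirect product `V ⋊ H` -/
structure Aff {F V : Type u} [Field F] [AddCommGroup V] [Module F V] (H : Subgroup (End F V)ˣ) :
    Type u where
  v : V
  h : H

namespace Aff

variable {F V : Type u} [Field F] [AddCommGroup V] [Module F V] {H : Subgroup (End F V)ˣ}

theorem ext' {a b : Aff H} (h1 : a.v = b.v) (h2 : a.h = b.h) : a = b := by
  cases a; cases b; simp_all

/-- the endomorphism attached to an element of `H` -/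
def E (h : H) : End F V := ((h : (End F V)ˣ) : End F V)

lemma E_mul (h k : H) : E (h * k) = E h * E k := rfl
lemma E_one : E (1 : H) = 1 := rfl
lemma E_pow (h : H) (j : ℕ) : E (h ^ j) = E h ^ j := by simp [E]

instance : Group (Aff H) where
  mul a b := ⟨a.v + E a.h b.v, a.h * b.h⟩
  one := ⟨0, 1⟩
  inv a := ⟨- E a.h⁻¹ a.v, a.h⁻¹⟩
  mul_assoc a b c := by
    apply ext'
    · show (a.v + E a.h b.v) + E (a.h * b.h) c.v = a.v + E a.h (b.v + E b.h c.v)
      rw [E_mul, map_add, Module.End.mul_apply, add_assoc]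
    · exact mul_assoc _ _ _
  one_mul a := by
    apply ext'
    · show (0 : V) + E (1 : H) a.v = a.v
      rw [E_one]; simp
    · exact one_mul _
  mul_one a := by
    apply ext'
    · show a.v + E a.h (0 : V) = a.v
      simp
    · exact mul_one _
  inv_mul_cancel a := by
    apply ext'
    · show - E a.h⁻¹ a.v + E a.h⁻¹ a.v = 0
      simp
    · exact inv_mul_cancel _

lemma mul_v (a b : Aff H) : (a * b).v = a.v + E a.h b.v := rfl
lemma mul_h (a b : Aff H) : (a * b).h = a.h * b.h := rfl
lemma one_v : (1 : Aff H).v = 0 := rfl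
lemma one_h : (1 : Aff H).h = 1 := rfl

lemma pow_h (a : Aff H) (j : ℕ) : (a ^ j).h = a.h ^ j := by
  induction j with
  | zero => rw [pow_zero, pow_zero, one_h]
  | succ j ih => rw [pow_succ, mul_h, ih, pow_succ]

lemma pow_v (a : Aff H) (j : ℕ) : (a ^ j).v = (∑ i ∈ Finset.range j, E a.h ^ i) a.v := by
  induction j with
  | zero => simp [one_v]
  | succ j ih => rw [pow_succ, mul_v, ih, pow_h, E_pow, Finset.sum_range_succ, LinearMap.add_apply]

/-- the projection to `H` -/
def proj : Aff H →* H where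
  toFun a := a.h
  map_one' := rfl
  map_mul' _ _ := rfl

instance [Finite V] : Finite (End F V) :=
  Finite.of_injective (fun f : End F V => (f : V → V)) DFunLike.coe_injective

instance [Finite V] : Finite (Aff H) :=
  Finite.of_injective (fun a : Aff H => (a.v, a.h)) (fun a b hab => by
    have h1 := congrArg Prod.fst hab
    have h2 := congrArg Prod.snd hab
    exact ext' h1 h2)

lemma orderOf_h_dvd (a : Aff H) : orderOf a.h ∣ orderOf a := by
  apply orderOf_dvd_of_pow_eq_one
  rw [← pow_h, pow_orderOf_eq_one, one_h]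

lemma orderOf_of_zero (a : Aff H) (hu : (∑ i ∈ Finset.range (orderOf a.h), E a.h ^ i) a.v = 0) :
    orderOf a = orderOf a.h := by
  apply Nat.dvd_antisymm _ (orderOf_h_dvd a)
  apply orderOf_dvd_of_pow_eq_one
  apply ext'
  · rw [pow_v, hu, one_v]
  · rw [pow_h, pow_orderOf_eq_one, one_h]

lemma orderOf_of_ne_zero [CharP F 2] [Finite V] (a : Aff H)
    (hu : (∑ i ∈ Finset.range (orderOf a.h), E a.h ^ i) a.v ≠ 0) :
    orderOf a = 2 * orderOf a.h := by
  have hm : 0 < orderOf a.h := orderOf_pos a.h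
  have h1 : orderOf a ∣ 2 * orderOf a.h := by
    apply orderOf_dvd_of_pow_eq_one
    rw [mul_comm, pow_mul, pow_two]
    apply ext'
    · rw [mul_v, pow_h, pow_orderOf_eq_one, E_one, Module.End.one_apply, one_v, ← two_smul F,
        CharTwo.two_eq_zero, zero_smul]
    · rw [mul_h, pow_h, pow_orderOf_eq_one, one_mul, one_h]
  obtain ⟨c, hc⟩ := orderOf_h_dvd a
  rw [hc, mul_comm 2] at h1
  have h2 : c ∣ 2 := Nat.dvd_of_mul_dvd_mul_left hm h1
  rcases (Nat.dvd_prime Nat.prime_two).mp h2 with rfl | rfl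
  · exfalso
    apply hu
    rw [← pow_v]
    have : a ^ orderOf a.h = 1 := by
      have := pow_orderOf_eq_one a
      rwa [hc, mul_one] at this
    rw [this, one_v]
  · rw [hc, mul_comm]

end Aff

/-- AFF (with `Nm` unfolded): the spectrum of `V ⋊ H` -/
theorem exists_affine_core {F V : Type u} [Field F] [CharP F 2] [AddCommGroup V] [Module F V] [Finite V]
    [Nontrivial V] (H : Subgroup (End F V)ˣ) :
    ∃ (G : Type u) (_ : Group G) (_ : Finite G) (K : Subgroup G), K.Normal ∧ K ≠ ⊥ ∧
      Group.IsSolvable K ∧ ∀ n : ℕ, (∃ x : G, orderOf x = n) ↔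
        ∃ h ∈ H, n = orderOf h ∨ (n = 2 * orderOf h ∧
          (∑ i ∈ Finset.range (orderOf h), (h : End F V) ^ i) ≠ 0) := by
  refine ⟨Aff H, inferInstance, inferInstance, (Aff.proj (H := H)).ker, inferInstance, ?_, ?_, ?_⟩
  · intro hbot
    obtain ⟨v, hv⟩ := exists_ne (0 : V)
    have hmem : (⟨v, 1⟩ : Aff H) ∈ (Aff.proj (H := H)).ker := rfl
    rw [hbot, Subgroup.mem_bot] at hmem
    exact hv (congrArg Aff.v hmem)
  · apply Group.isSolvable_of_comm
    intro a b
    apply Subtype.ext
    have ha : a.1.h = 1 := a.2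
    have hb : b.1.h = 1 := b.2
    apply Aff.ext'
    · show a.1.v + Aff.E a.1.h b.1.v = b.1.v + Aff.E b.1.h a.1.v
      rw [ha, hb, Aff.E_one, Module.End.one_apply, Module.End.one_apply, add_comm]
    · show a.1.h * b.1.h = b.1.h * a.1.h
      rw [ha, hb]
  · intro n
    constructor
    · rintro ⟨x, rfl⟩
      refine ⟨x.h.1, x.h.2, ?_⟩
      rw [Subgroup.orderOf_coe]
      by_cases hu : (∑ i ∈ Finset.range (orderOf x.h), Aff.E x.h ^ i) x.v = 0
      · left; exact Aff.orderOf_of_zero x hu
      · right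
        refine ⟨Aff.orderOf_of_ne_zero x hu, ?_⟩
        intro h0
        apply hu
        have : (∑ i ∈ Finset.range (orderOf x.h), Aff.E x.h ^ i) = 0 := h0
        rw [this, LinearMap.zero_apply]
    · rintro ⟨h, hh, hn | ⟨hn, hne⟩⟩
      · refine ⟨⟨0, ⟨h, hh⟩⟩, ?_⟩
        rw [hn, Aff.orderOf_of_zero _ (by simp), ← Subgroup.orderOf_coe]
      · obtain ⟨v, hv⟩ : ∃ v, (∑ i ∈ Finset.range (orderOf h), (h : End F V) ^ i) v ≠ 0 := by
          by_contra hcon
          push Not at hcon
          exact hne (LinearMap.ext hcon)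
        refine ⟨⟨v, ⟨h, hh⟩⟩, ?_⟩
        have ho : orderOf (⟨h, hh⟩ : H) = orderOf h := by rw [← Subgroup.orderOf_coe]
        rw [hn, Aff.orderOf_of_ne_zero _ (by rw [ho]; exact hv), ho]

end Cfsg.Agent.Lib.Helper35.SPU
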