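import Mathlib
import Cfsg.Agent.Lib.Helper99.SPU.Defs
import Cfsg.Agent.Lib.Helper50.QuadIso
import Cfsg.Agent.Lib.Helper35.SPUTRANSCore

set_option autoImplicit false

universe u

namespace Cfsg.Agent.Lib.Helper35.SPU

open Module LinearMap QuadraticMap Cfsg.Agent.Lib.Helper99.SP8 Cfsg.Agent.Lib.Helper99.SPU

/-- two minus type spaces of dimension 8 are isometric -/
theorem exists_isometry_of_isTyp {F : Type*} [Field F] [Fintype F] {V V₀ : Type*} [AddCommGroup V]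
    [Module F V] [FiniteDimensional F V] [AddCommGroup V₀] [Module F V₀] [FiniteDimensional F V₀]
    (Q : QuadraticForm F V) (Q₀ : QuadraticForm F V₀) (h : IsTyp Q 4 false)
    (h₀ : IsTyp Q₀ 4 false) : ∃ e : V ≃ₗ[F] V₀, ∀ v, Q₀ (e v) = Q v := by
  obtain ⟨hdim, hnd, hc⟩ := h
  obtain ⟨hdim₀, hnd₀, hc₀⟩ := h₀
  have hQ : Cfsg.Agent.Lib.Helper50.Quad.Nondeg Q ⊤ := by
    intro w _ hw
    by_contra hcon
    push Not at hcon
    exact hw (hnd w (fun y => hcon y Submodule.mem_top))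
  have hQ₀ : Cfsg.Agent.Lib.Helper50.Quad.Nondeg Q₀ ⊤ := by
    intro w _ hw
    by_contra hcon
    push Not at hcon
    exact hw (hnd₀ w (fun y => hcon y Submodule.mem_top))
  have hq : 0 < Fintype.card F := Fintype.card_pos
  have hcard : Nat.card {v : V // Q v = 0} = Nat.card {v : V₀ // Q₀ v = 0} := by
    simp only [cond_false] at hc hc₀
    have h1 : Fintype.card F * Nat.card {v : V // Q v = 0}
        = Fintype.card F * Nat.card {v : V₀ // Q₀ v = 0} := by omega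
    exact Nat.eq_of_mul_eq_mul_left hq h1
  exact Cfsg.Agent.Lib.Helper50.Quad.iso_of_card_sing 3 hdim hdim₀ hQ hQ₀ hcard

/-- TRANS1 -/
theorem transport_QD {F : Type u} [Field F] [Fintype F] {V₀ : Type u} [AddCommGroup V₀]
    [Module F V₀] [FiniteDimensional F V₀] (Q₀ : QuadraticForm F V₀) (h₀ : IsTyp Q₀ 4 false)
    {K δ : ℕ} (hK : 0 < K) (h : QD F false 4 K δ) :
    ∃ g : (End F V₀)ˣ, (∀ v, Q₀ ((g : End F V₀) v) = Q₀ v) ∧
      finrank F (ker ((g : End F V₀) - 1)) = δ ∧ orderOf g = K := by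
  obtain ⟨V, _, _, _, Q, T, hty, hT, hord, hfix⟩ := h
  obtain ⟨e, he⟩ := exists_isometry_of_isTyp Q Q₀ hty h₀
  obtain ⟨g, h1, h2, h3, -⟩ := transport_core Q Q₀ e he T hT hK hord
  exact ⟨g, h1, h2.trans hfix, h3⟩

/-- TRANS2 -/
theorem transport_QN {F : Type u} [Field F] [Fintype F] {V₀ : Type u} [AddCommGroup V₀]
    [Module F V₀] [FiniteDimensional F V₀] (Q₀ : QuadraticForm F V₀) (h₀ : IsTyp Q₀ 4 false)
    {K δ : ℕ} (hK : 0 < K) (h : QN F false 4 K δ) :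
    ∃ g : (End F V₀)ˣ, (∀ v, Q₀ ((g : End F V₀) v) = Q₀ v) ∧
      finrank F (ker ((g : End F V₀) - 1)) = δ ∧ orderOf g = K ∧ Nm (g : End F V₀) K ≠ 0 := by
  obtain ⟨V, _, _, _, Q, T, hty, hT, hord, hfix, hN⟩ := h
  obtain ⟨e, he⟩ := exists_isometry_of_isTyp Q Q₀ hty h₀
  obtain ⟨g, h1, h2, h3, h4⟩ := transport_core Q Q₀ e he T hT hK hord
  exact ⟨g, h1, h2.trans hfix, h3, h4 hN⟩

end Cfsg.Agent.Lib.Helper35.SPU
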