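import Cfsg.Agent.Lib.Helper35.Simple3

/-! More on generating lists of words; some identities between involutions. -/

namespace Cfsg.Agent.Lib.Helper35

/-- concatenations of generating words can be added to a generating list -/
lemma wsub_append_of_factors {G : Type*} [Group G] (val : Nat → G) (W W' : List (List Nat))
    (F : List (List (List Nat))) (hF : F.map List.flatten = W') (h : ∀ f ∈ F, ∀ t ∈ f, t ∈ W) :
    wsub val (W ++ W') = wsub val W := by
  apply le_antisymm
  · unfold wsub
    rw [Subgroup.closure_le]
    rintro _ ⟨s, hs, rfl⟩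
    rcases List.mem_append.mp hs with hs | hs
    · exact mem_wsub val W s hs
    · have key : ∀ f : List (List Nat), (∀ t ∈ f, t ∈ W) → wval val f.flatten ∈ wsub val W := by
        intro f
        induction f with
        | nil => intro _; exact (wsub val W).one_mem
        | cons t f ih =>
          intro hf
          rw [List.flatten_cons, wval_append]
          exact (wsub val W).mul_mem (mem_wsub val W t (hf t List.mem_cons_self))
            (ih (fun t' ht' => hf t' (List.mem_cons_of_mem _ ht')))
      rw [← hF] at hs
      obtain ⟨f, hf, rfl⟩ := List.mem_map.mp hs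
      exact key f (h f hf)
  · exact wsub_mono val _ _ (fun s hs => List.mem_append_left _ hs)

section invol

variable {G : Type*} [Group G]

lemma comm_of_pair (a x : G) (ha : a * a = 1) (hx : x * x = 1) (h : a * (x * (a * x)) = 1) :
    a * x = x * a := by
  have h1 : (a * x) * (a * x) = 1 := by rw [mul_assoc]; exact h
  have h2 : (a * x)⁻¹ = a * x := inv_eq_of_mul_eq_one_left h1
  have hai : a⁻¹ = a := inv_eq_of_mul_eq_one_left ha
  have hxi : x⁻¹ = x := inv_eq_of_mul_eq_one_left hx
  rw [mul_inv_rev, hai, hxi] at h2
  exact h2.symm

lemma conj_sq (a b : G) (ha : a * a = 1) (hb : b * b = 1) : b * (a * (b * (b * (a * b)))) = 1 := by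
  calc b * (a * (b * (b * (a * b)))) = b * (a * ((b * b) * (a * b))) := by group
    _ = b * ((a * a) * b) := by rw [hb]; group
    _ = 1 := by rw [ha, one_mul, hb]

lemma conj_comm (a b x : G) (ha : a * a = 1) (hb : b * b = 1) (hx : x * x = 1) (hax : a * x = x * a)
    (hbx : b * x = x * b) : b * (a * (b * (x * (b * (a * (b * x)))))) = 1 := by
  have h1 : b * (a * b) * x = x * (b * (a * b)) := by
    calc b * (a * b) * x = b * (a * (b * x)) := by group
      _ = b * (a * (x * b)) := by rw [hbx]
      _ = b * ((a * x) * b) := by group
      _ = b * ((x * a) * b) := by rw [hax]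
      _ = (b * x) * (a * b) := by group
      _ = (x * b) * (a * b) := by rw [hbx]
      _ = x * (b * (a * b)) := by group
  calc b * (a * (b * (x * (b * (a * (b * x)))))) = (b * (a * b) * x) * (b * (a * b)) * x := by group
    _ = x * (b * (a * b)) * (b * (a * b)) * x := by rw [h1]
    _ = x * (b * (a * (b * (b * (a * b))))) * x := by group
    _ = 1 := by rw [conj_sq a b ha hb, mul_one, hx]

lemma conj_four (a b : G) (h : a * (b * (a * (b * (a * (b * (a * b)))))) = 1) :
    b * (a * (b * (a * (b * (a * (b * a)))))) = 1 := by
  calc b * (a * (b * (a * (b * (a * (b * a)))))) = a⁻¹ * (a * (b * (a * (b * (a * (b * (a * b))))))) * a := by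
        group
    _ = 1 := by rw [h]; group

/-- in the Coxeter group of type `B₃` the central element is the product of the three sign changes -/
lemma b3_center (a b c e : G) (ha : a * a = 1) (hb : b * b = 1) (hc : c * c = 1) (he : e * e = 1)
    (hac : a * c = c * a) (hbc : b * (c * (b * (c * (b * c)))) = 1)
    (h : e * (c * (b * (a * (c * (b * (a * (c * (b * a)))))))) = 1) :
    e * (a * (b * (a * (b * (c * (b * (a * (b * c)))))))) = 1 := by
  have hai : a⁻¹ = a := inv_eq_of_mul_eq_one_left ha
  have hbi : b⁻¹ = b := inv_eq_of_mul_eq_one_left hb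
  have hci : c⁻¹ = c := inv_eq_of_mul_eq_one_left hc
  have hbr : c * b * c = b * c * b := by
    have h1 : (b * c * b) * (c * b * c) = 1 := by
      calc (b * c * b) * (c * b * c) = b * (c * (b * (c * (b * c)))) := by group
        _ = 1 := hbc
    have h2 : (c * b * c)⁻¹ = b * c * b := inv_eq_of_mul_eq_one_left h1
    rw [mul_inv_rev, mul_inv_rev, hci, hbi] at h2
    rw [← h2]; group
  have hE : e = a * b * c * (a * b * c) * (a * b * c) := by
    have h1 : e = (c * (b * (a * (c * (b * (a * (c * (b * a))))))))⁻¹ := eq_inv_of_mul_eq_one_left h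
    rw [h1]
    simp only [mul_inv_rev, hai, hbi, hci]
    group
  have hX : a * (b * (a * (b * (c * (b * (a * (b * c))))))) = a * b * c * (a * b * c) * (a * b * c) := by
    symm
    calc a * b * c * (a * b * c) * (a * b * c) = a * b * (c * a) * b * c * a * b * c := by group
      _ = a * b * (a * c) * b * c * a * b * c := by rw [hac]
      _ = a * b * a * (c * b * c) * a * b * c := by group
      _ = a * b * a * (b * c * b) * a * b * c := by rw [hbr]
      _ = a * (b * (a * (b * (c * (b * (a * (b * c))))))) := by group
  rw [hX, ← hE, he]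

end invol

end Cfsg.Agent.Lib.Helper35
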